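import Cfsg.Agent.H587.KB8.Two
import Cfsg.Agent.H587.KB8.FourEnd
import Cfsg.Agent.H826.Geo.Minus
import Cfsg.Agent.H440.Bs.Iso
import Cfsg.Agent.H541.Bs.Glue

/-!
# Elements of order `l ∣ q² + 1` in orthogonal groups (helper683, S4876)

* `irr_of_four` : an element of order `l` without fixed vectors on a space of dimension four is irreducible;
* `exists_ell` : a nondegenerate quadratic space of dimension at least five has an isometry of order `l`;
* `no_ell` : a quadratic space of dimension four and plus type has none.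
-/

set_option autoImplicit false
set_option linter.unusedSectionVars false

open QuadraticMap Module Cfsg.Agent.LieClassical.OrthCore Cfsg.Agent.LieClassical.OrthTrans
open Cfsg.Agent.H847.Bs Cfsg.Agent.H826.Bs Cfsg.Agent.H826.Geo Cfsg.Agent.H932 Cfsg.Agent.H587.KB8
open Cfsg.Agent.H200.LinFix (Ordd dvd_finrank)

namespace Cfsg.Agent.H683.K6

section

variable {F : Type*} [Field F] {V : Type*} [AddCommGroup V] [Module F V]

theorem plusT_iff_pl (Q : QuadraticForm F V) : PlusT Q ↔ Pl Q := by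
  constructor
  · rintro ⟨A, hA, hd⟩
    exact ⟨A, fun u hu => hA.2 u hu, hd⟩
  · rintro ⟨A, hA, hd⟩
    refine ⟨A, ⟨fun x hx y hy => ?_, fun x hx => hA x hx⟩, hd⟩
    change polar Q x y = 0
    rw [polar, hA _ (A.add_mem hx hy), hA x hx, hA y hy]
    ring

variable [Finite F] [FiniteDimensional F V] {l : ℕ} [Fact l.Prime]

theorem irr_of_four (hd : Ordd l (Nat.card F) 4) (hV : finrank F V = 4) (X : V ≃ₗ[F] V) (hX : X ^ l = 1)
    (hfix : ∀ v, X v = v → v = 0) (Y : Submodule F V) (hY : Inv X Y) : Y = ⊥ ∨ Y = ⊤ := by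
  have hfV : Finite V := Module.finite_of_finite F
  have h1 : 4 ∣ finrank F Y := by
    refine dvd_finrank (p := l) hd (g := (X : Module.End F V)) (fun w hw => hY w hw) (fun w _ => ?_)
      (fun w _ hw => hfix w hw)
    have h6 : (X : Module.End F V) ^ l = ((X ^ l : V ≃ₗ[F] V) : Module.End F V) :=
      (map_pow (LinearEquiv.automorphismGroup.toLinearMapMonoidHom (R := F) (M := V)) X l).symm
    rw [h6, hX]
    rfl
  have h2 : finrank F Y ≤ 4 := hV ▸ Submodule.finrank_le Y
  rcases Nat.eq_zero_or_pos (finrank F Y) with h0 | h0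
  · left
    rwa [Submodule.finrank_eq_zero] at h0
  · right
    apply Submodule.eq_top_of_finrank_eq
    rw [hV]
    have := Nat.le_of_dvd h0 h1
    omega

theorem fix_dvd (hd : Ordd l (Nat.card F) 4) (hlF : (l : F) ≠ 0) (X : V ≃ₗ[F] V) (hX : X ^ l = 1)
    (hV : finrank F V = 4) (hX1 : X ≠ 1) (v : V) (hv : X v = v) : v = 0 := by
  have hfV : Finite V := Module.finite_of_finite F
  have h6 : (X : Module.End F V) ^ l = 1 := by
    have h6 : (X : Module.End F V) ^ l = ((X ^ l : V ≃ₗ[F] V) : Module.End F V) :=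
      (map_pow (LinearEquiv.automorphismGroup.toLinearMapMonoidHom (R := F) (M := V)) X l).symm
    rw [h6, hX]
    rfl
  have hne : (X : Module.End F V) ≠ 1 := by
    intro h
    apply hX1
    ext w
    exact LinearMap.congr_fun h w
  have h1 := Cfsg.Agent.H200.LinFix.dvd_finrank_R (p := l) hd hlF h6
  have h2 := Cfsg.Agent.H200.LinFix.R_ne_bot hne
  have h3 := Cfsg.Agent.H200.LinFix.finrank_add (X : Module.End F V)
  have h4 : finrank F (Cfsg.Agent.H200.LinFix.R (X : Module.End F V)) ≠ 0 := by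
    intro h
    exact h2 (Submodule.finrank_eq_zero.1 h)
  have h5 := Nat.le_of_dvd (Nat.pos_of_ne_zero h4) h1
  have h7 : finrank F (Cfsg.Agent.H200.LinFix.K (X : Module.End F V)) = 0 := by omega
  rw [Submodule.finrank_eq_zero] at h7
  have h8 : v ∈ Cfsg.Agent.H200.LinFix.K (X : Module.End F V) := Cfsg.Agent.H200.LinFix.mem_K.2 hv
  rw [h7] at h8
  exact h8

/-- **no isometry of order `l` on a four-dimensional space of plus type** -/
theorem no_ell (hd : Ordd l (Nat.card F) 4) (hlF : (l : F) ≠ 0) {Q : QuadraticForm F V} (hQ : Nondeg Q)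
    (hpl : Pl Q) (hV : finrank F V = 4) (X : V ≃ₗ[F] V) (hX : X ^ l = 1) (hXQ : ∀ v, Q (X v) = Q v) : X = 1 := by
  by_contra hX1
  have h1 := irr_of_four hd hV X hX (fix_dvd hd hlF X hX hV hX1)
  exact not_plus_of_irr hQ X h1 (c := 1) (fun v => by rw [hXQ, one_mul]) (by omega) ((plusT_iff_pl Q).2 hpl)

end

/-- **an isometry of order `l` on a space of dimension at least five** -/
theorem exists_ell {F : Type} [Field F] [Fintype F] {V : Type} [AddCommGroup V] [Module F V]
    [FiniteDimensional F V] {l : ℕ} [Fact l.Prime] (hl2 : l ≠ 2) (hl : l ∣ Fintype.card F ^ 2 + 1)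
    {Q : QuadraticForm F V} (hQ : Nondeg Q) (h5 : 5 ≤ finrank F V) :
    ∃ y : V ≃ₗ[F] V, y ∈ O Q ∧ y ^ l = 1 ∧ y ≠ 1 := by
  classical
  obtain ⟨hord, -⟩ := ordd_four hl2 hl
  have hord' : Ordd l (Nat.card F) 4 := by rw [Nat.card_eq_fintype_card]; exact hord
  obtain ⟨D, hD, hfD, hDm⟩ := exists_minus_sub hQ 2 (by norm_num) (by omega)
  -- the field of degree four
  obtain ⟨p0, hch⟩ := CharP.exists F
  have : Fact p0.Prime := ⟨CharP.char_is_prime F p0⟩
  let K := FiniteField.Extension F p0 4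
  have hK : finrank F K = 4 := FiniteField.finrank_extension F p0 4
  have hfd : FiniteDimensional F K := Module.finite_of_finrank_pos (by rw [hK]; norm_num)
  have hfin : Finite K := Module.finite_of_finite F
  obtain ⟨Q₁, hQ₁, hnd⟩ := (quart' hK).exists_form
  obtain ⟨z, hz, hz1⟩ := exists_zeta (F := F) hK hl
  have hz0 : z ≠ 0 := by
    rintro rfl
    rw [zero_pow (Fact.out : l.Prime).ne_zero] at hz
    exact zero_ne_one hz
  have hnz : nm (fr F K) z = 1 := by
    rw [nm_eq]
    obtain ⟨k, hk⟩ := hl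
    rw [hk, pow_mul, hz, one_pow]
  let X : K ≃ₗ[F] K := DistribMulAction.toModuleAut F K (Units.mk0 z hz0)
  have hXa : ∀ v, X v = z * v := fun v => rfl
  have hXl : X ^ l = 1 := by
    change (DistribMulAction.toModuleAut F K (Units.mk0 z hz0)) ^ l = 1
    rw [← map_pow]
    have : (Units.mk0 z hz0) ^ l = 1 := by
      apply Units.ext
      rw [Units.val_pow_eq_pow_val, Units.val_mk0, hz, Units.val_one]
    rw [this, map_one]
  have hXfix : ∀ v, X v = v → v = 0 := by
    intro v hv
    by_contra h0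
    rw [hXa] at hv
    exact hz1 (mul_right_cancel₀ h0 (by rw [hv, one_mul]))
  have hXQ : ∀ v, Q₁ (X v) = Q₁ v := by
    intro v
    apply (algebraMap F K).injective
    rw [hXa, hQ₁, hQ₁, nm_mul, hnz, one_mul]
  have hKm : ¬ PlusT Q₁ := not_plus_of_irr hnd X (irr_of_four hord' hK X hXl hXfix) (c := 1)
    (fun v => by rw [hXQ, one_mul]) (by omega)
  obtain ⟨e, he⟩ := exists_isometry hnd (nd_comp_iff.2 hD) (by rw [hK]; decide) (by rw [hK, hfD])
    ⟨fun h => absurd ((plusT_iff_pl Q₁).2 h) hKm, fun h => absurd ((plusT_iff_pl _).2 h) hDm⟩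
  have hdec := dec_prp hD
  let y₁ : D ≃ₗ[F] D := (e.symm.trans X).trans e
  have hy₁ : y₁ = cj e X := rfl
  have hy₁l : y₁ ^ l = 1 := by rw [hy₁, ← map_pow, hXl, map_one]
  have hpow : ∀ n : ℕ, (glue hdec.compl y₁ 1) ^ n = glue hdec.compl (y₁ ^ n) 1 := by
    intro n
    induction n with
    | zero => rw [pow_zero, pow_zero, Cfsg.Agent.H541.Bs.glue_one]
    | succ n ih =>
      have h1 := Cfsg.Agent.H541.Bs.glue_mul hdec.compl (y₁ ^ n) y₁ 1 1
      rw [mul_one] at h1
      rw [pow_succ, ih, pow_succ, h1]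
  refine ⟨glue hdec.compl y₁ 1, ?_, ?_, ?_⟩
  · have h1 : glue hdec.compl y₁ 1 ∈ (frmQ Q).Iso := by
      rw [Cfsg.Agent.H440.Bs.glue_mem_iso hdec]
      refine ⟨?_, Subgroup.one_mem _⟩
      have h2 : ∀ d : D, Q (y₁ d : V) = Q (d : V) := by
        intro d
        obtain ⟨k, rfl⟩ := e.surjective d
        have h3 := he (X k)
        have h4 := he k
        have h5 : y₁ (e k) = e (X k) := by rw [hy₁, cj_apply]
        rw [h5]
        change (Q.comp D.subtype) (e (X k)) = (Q.comp D.subtype) (e k)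
        rw [h3, h4, hXQ]
      refine ⟨fun d d' => ?_, h2⟩
      change polar Q (y₁ d : V) (y₁ d' : V) = polar Q (d : V) (d' : V)
      have h3 := h2 (d + d')
      rw [map_add, Submodule.coe_add, Submodule.coe_add] at h3
      rw [polar, polar, h3, h2, h2]
    exact h1.2
  · rw [hpow, hy₁l, Cfsg.Agent.H541.Bs.glue_one]
  · intro h1
    rw [← Cfsg.Agent.H541.Bs.glue_one (F := F) hdec.compl] at h1
    have h2 := (Cfsg.Agent.H541.Bs.glue_inj hdec.compl h1).1
    have h3 : X = 1 := by
      apply cj_injective e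
      rw [← hy₁, h2, map_one]
    have h4 : X 1 = 1 := by rw [h3]; rfl
    exact one_ne_zero (hXfix 1 h4)

end Cfsg.Agent.H683.K6
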