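import Cfsg.Agent.H683.K6.Ell

/-!
# The plane `det (v, g v)` (helper683, S4876)

* `exists_rr` : an isometry `r` with `r² = 1`, `g r g = r`;
* `exists_norm` : `a² + a b t + b² = -1`;
* `pl_two` : two copies of the plane have plus type.
-/

set_option autoImplicit false
set_option linter.unusedSectionVars false

open QuadraticMap Module Cfsg.Agent.LieClassical.OrthCore Cfsg.Agent.H587.KB8 Cfsg.Agent.H932

namespace Cfsg.Agent.H683.K6

section plane

variable {F : Type} [Field F] (g : Matrix.SpecialLinearGroup (Fin 2) F)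

theorem exists_xyz : ∃ x y z : F, x * x + y * z = 1 ∧ x * (g.1 0 0 - g.1 1 1) + y * g.1 1 0 + z * g.1 0 1 = 0 := by
  by_cases hc : g.1 1 0 = 0
  · by_cases hb : g.1 0 1 = 0
    · exact ⟨0, 1, 1, by ring, by rw [hc, hb]; ring⟩
    · refine ⟨1, 0, (g.1 1 1 - g.1 0 0) / g.1 0 1, by ring, ?_⟩
      field_simp
      ring
  · refine ⟨1, (g.1 1 1 - g.1 0 0) / g.1 1 0, 0, by ring, ?_⟩
    field_simp
    ring

theorem exists_rr : ∃ r : (Fin 2 → F) ≃ₗ[F] (Fin 2 → F), (∀ v, r (r v) = v) ∧
    (∀ v, Matrix.SpecialLinearGroup.toLin' g (r (Matrix.SpecialLinearGroup.toLin' g v)) = r v) ∧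
    ∀ v, bl g (r v) (r v) = bl g v v := by
  obtain ⟨x, y, z, h1, h2⟩ := exists_xyz g
  have hdet := det_eq g
  let f : (Fin 2 → F) →ₗ[F] (Fin 2 → F) :=
    { toFun := fun v => ![x * v 0 + y * v 1, z * v 0 - x * v 1]
      map_add' := fun v w => by
        ext i
        fin_cases i <;> simp <;> ring
      map_smul' := fun c v => by
        ext i
        fin_cases i <;> simp <;> ring }
  have hf0 : ∀ v, f v 0 = x * v 0 + y * v 1 := fun v => rfl
  have hf1 : ∀ v, f v 1 = z * v 0 - x * v 1 := fun v => rfl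
  have hff : ∀ v, f (f v) = v := by
    intro v
    ext i
    fin_cases i
    · simp only [Fin.zero_eta, hf0, hf1]
      linear_combination v 0 * h1
    · simp only [Fin.mk_one, hf0, hf1]
      linear_combination v 1 * h1
  refine ⟨LinearEquiv.ofLinearMap f f (LinearMap.ext hff) (LinearMap.ext hff), hff, ?_, ?_⟩
  · intro v
    change Matrix.SpecialLinearGroup.toLin' g (f (Matrix.SpecialLinearGroup.toLin' g v)) = f v
    ext i
    fin_cases i
    · simp only [Fin.zero_eta, lin_apply, hf0, hf1]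
      linear_combination (g.1 0 0 * v 0 + g.1 0 1 * v 1) * h2 + (x * v 0 + y * v 1) * hdet
    · simp only [Fin.mk_one, lin_apply, hf0, hf1]
      linear_combination (g.1 1 0 * v 0 + g.1 1 1 * v 1) * h2 + (z * v 0 - x * v 1) * hdet
  · intro v
    change bl g (f v) (f v) = bl g v v
    rw [bl_apply, bl_apply, hf0, hf1]
    linear_combination (-z * v 0 ^ 2 + 2 * x * v 0 * v 1 + y * v 1 ^ 2) * h2 +
      (g.1 1 0 * v 0 ^ 2 + (g.1 1 1 - g.1 0 0) * v 0 * v 1 - g.1 0 1 * v 1 ^ 2) * h1

variable {g} {p : ℕ} [Fact p.Prime]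

theorem toLin_ne (hg1 : g ≠ 1) : Matrix.SpecialLinearGroup.toLin' g ≠ 1 := by
  intro h
  apply hg1
  apply Subtype.ext
  ext i j
  have h1 := congrFun (DFunLike.congr_fun h (Pi.single j 1)) i
  rw [lin_apply] at h1
  change _ = (Pi.single j 1 : Fin 2 → F) i at h1
  fin_cases i <;> fin_cases j <;> simpa [Pi.single_apply] using h1

theorem fix_g (hg : g ^ p = 1) (hg1 : g ≠ 1) (hpF : (p : F) ≠ 0) {m : ℕ} (h0 : 0 < m) (hm : m < p) {v : Fin 2 → F}
    (hv : Matrix.SpecialLinearGroup.toLin' (g ^ m) v = v) : v = 0 := by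
  rw [map_pow] at hv
  exact pow_fix_zero (by rw [← map_pow, hg, map_one]) (toLin_ne hg1) hpF (add_inv g) h0 hm hv

theorem tr_inj (hg : g ^ p = 1) (hg1 : g ≠ 1) (hpF : (p : F) ≠ 0) {k l : ℕ} (hk : 2 * k < p) (hl : 2 * l < p)
    (h : tr g k = tr g l) : k = l :=
  c_inj (z := Matrix.SpecialLinearGroup.toLin' g) (by rw [← map_pow, hg, map_one]) (toLin_ne hg1) hpF (c := tr g)
    (fun k v => by rw [← map_pow]; exact add_inv_pow g k v) hk hl h

theorem tr_zero : tr g 0 = 2 := by
  rw [tr, pow_zero]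
  simp
  norm_num

theorem tr_sq_ne (hp2 : p ≠ 2) (hg : g ^ p = 1) (hg1 : g ≠ 1) (hpF : (p : F) ≠ 0) : tr g 1 ^ 2 ≠ 4 := by
  have hp := (Fact.out : p.Prime).two_le
  intro h
  have h1 : (tr g 1 - 2) * (tr g 1 + 2) = 0 := by linear_combination h
  rcases mul_eq_zero.1 h1 with h2 | h2
  · have h3 : tr g 1 = tr g 0 := by rw [tr_zero]; linear_combination h2
    have := tr_inj hg hg1 hpF (by omega) (by omega) h3
    omega
  · have h3 : tr g 1 = -2 := by linear_combination h2
    set Z := Matrix.SpecialLinearGroup.toLin' g with hZ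
    have h4 : ∀ v, Z v + Z⁻¹ v = (-2 : F) • v := by
      intro v
      have := add_inv_pow g 1 v
      rwa [pow_one, h3] at this
    have h5 : ∀ v, Z (Z v) = -(2 : F) • Z v - v := by
      intro v
      have h6 := h4 (Z v)
      have h7 : Z⁻¹ (Z v) = v := Z.symm_apply_apply v
      rw [h7] at h6
      rw [← h6, add_sub_cancel_right]
    have hzero : ∀ v, Z (Z v) = v → v = 0 := by
      intro v hv
      refine fix_g hg hg1 hpF (m := 2) (by norm_num) (by omega) ?_
      rw [map_pow, pow_two]
      exact hv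
    have h8 : ∀ v, Z v + v = 0 := by
      intro v
      apply hzero
      have h9 : Z (Z v + v) = -(Z v + v) := by
        rw [map_add, h5, neg_smul, two_smul]
        abel
      rw [h9, map_neg, h9, neg_neg]
    have h10 : ∀ v : Fin 2 → F, v = 0 := by
      intro v
      apply hzero
      have h11 : ∀ v, Z v = -v := fun v => eq_neg_of_add_eq_zero_left (h8 v)
      rw [h11, h11, neg_neg]
    have h12 := congrFun (h10 1) 0
    exact one_ne_zero h12

theorem exists_norm [Fintype F] (hp2 : p ≠ 2) (hg : g ^ p = 1) (hg1 : g ≠ 1) (hpF : (p : F) ≠ 0) :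
    ∃ a b : F, a * a + a * b * tr g 1 + b * b = -1 := by
  by_cases h2 : (2 : F) = 0
  · refine ⟨1, 0, ?_⟩
    linear_combination h2
  · obtain ⟨s, hs⟩ : ∃ s : F, tr g 1 = 2 * s := ⟨tr g 1 / 2, by field_simp⟩
    have hc : (1 : F) - s ^ 2 ≠ 0 := by
      intro h
      apply tr_sq_ne hp2 hg hg1 hpF
      rw [hs]
      linear_combination -4 * h
    have hodd : Fintype.card F % 2 = 1 := by
      rcases Nat.mod_two_eq_zero_or_one (Fintype.card F) with h | h
      · exfalso
        have h3 := FiniteField.even_card_iff_char_two.2 h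
        apply h2
        have h4 : ((ringChar F : ℕ) : F) = 0 := ringChar.Nat.cast_ringChar
        rw [h3] at h4
        exact_mod_cast h4
      · exact h
    set c := (1 : F) - s ^ 2 with hcdef
    obtain ⟨u, v, huv⟩ := FiniteField.exists_root_sum_quadratic (R := F)
      (f := Polynomial.X ^ 2) (g := Polynomial.C c * Polynomial.X ^ 2 + Polynomial.C 1)
      (by rw [Polynomial.degree_X_pow]; rfl)
      (by
        rw [Polynomial.degree_add_eq_left_of_degree_lt]
        · rw [Polynomial.degree_C_mul_X_pow 2 hc]; rfl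
        · rw [Polynomial.degree_C_mul_X_pow 2 hc, Polynomial.degree_C one_ne_zero]
          norm_num) hodd
    simp only [Polynomial.eval_pow, Polynomial.eval_X, Polynomial.eval_add, Polynomial.eval_mul, Polynomial.eval_C] at huv
    refine ⟨u - s * v, v, ?_⟩
    rw [hs]
    rw [hcdef] at huv
    linear_combination huv

/-- two copies -/
noncomputable def q2 (g : Matrix.SpecialLinearGroup (Fin 2) F) : QuadraticForm F (Fin 2 → (Fin 2 → F)) :=
  QuadraticMap.pi fun _ => (bl g).toQuadraticMap

theorem q2_apply (w : Fin 2 → (Fin 2 → F)) : q2 g w = bl g (w 0) (w 0) + bl g (w 1) (w 1) := by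
  rw [q2, QuadraticMap.pi_apply, Fin.sum_univ_two]
  rfl

theorem nondeg_pi {n : ℕ} (h : Nondeg (bl g).toQuadraticMap) :
    Nondeg (QuadraticMap.pi fun _ : Fin n => (bl g).toQuadraticMap) := by
  intro v hv
  ext i : 1
  apply h
  intro y
  have h1 := hv (Pi.single i y)
  have h2 : polar (QuadraticMap.pi fun _ : Fin n => (bl g).toQuadraticMap) v (Pi.single i y) =
      ∑ j, polar (bl g).toQuadraticMap (v j) ((Pi.single i y : Fin n → (Fin 2 → F)) j) := by
    simp only [polar, QuadraticMap.pi_apply, Pi.add_apply, Finset.sum_sub_distrib]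
  rw [h2, Finset.sum_eq_single i] at h1
  · rwa [Pi.single_eq_same] at h1
  · intro j _ hj
    rw [Pi.single_eq_of_ne hj, polar_zero_right]
  · intro h; exact (h (Finset.mem_univ _)).elim

theorem pl_q2 [Fintype F] (hp2 : p ≠ 2) (hg : g ^ p = 1) (hg1 : g ≠ 1) (hpF : (p : F) ≠ 0) : Pl (q2 g) := by
  obtain ⟨a, b, hab⟩ := exists_norm hp2 hg hg1 hpF
  have hdet := det_eq g
  have htr : tr g 1 = g.1 0 0 + g.1 1 1 := by rw [tr, pow_one]
  rw [htr] at hab
  let f : (Fin 2 → F) →ₗ[F] (Fin 2 → (Fin 2 → F)) :=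
    { toFun := fun u => ![u, a • u + b • Matrix.SpecialLinearGroup.toLin' g u]
      map_add' := fun u v => by
        ext i : 1
        fin_cases i
        · rfl
        · simp only [Fin.mk_one, map_add, smul_add]
          change _ = (a • u + b • Matrix.SpecialLinearGroup.toLin' g u) + (a • v + b • Matrix.SpecialLinearGroup.toLin' g v)
          change a • u + a • v + (b • Matrix.SpecialLinearGroup.toLin' g u + b • Matrix.SpecialLinearGroup.toLin' g v) = _
          abel
      map_smul' := fun c u => by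
        ext i : 1
        fin_cases i
        · rfl
        · simp only [Fin.mk_one, map_smul]
          change a • c • u + b • c • Matrix.SpecialLinearGroup.toLin' g u =
            c • (a • u + b • Matrix.SpecialLinearGroup.toLin' g u)
          rw [smul_add, smul_comm a c, smul_comm b c] }
  have hf0 : ∀ u, f u 0 = u := fun u => rfl
  have hf1 : ∀ u, f u 1 = a • u + b • Matrix.SpecialLinearGroup.toLin' g u := fun u => rfl
  have hf : Function.Injective f := fun u v h => by rw [← hf0 u, ← hf0 v, h]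
  refine ⟨LinearMap.range f, ?_, ?_⟩
  · rintro _ ⟨u, rfl⟩
    rw [q2_apply, hf0, hf1, bl_apply, bl_apply]
    simp only [Pi.add_apply, Pi.smul_apply, smul_eq_mul, lin_apply]
    linear_combination (g.1 1 0 * u 0 ^ 2 + (g.1 1 1 - g.1 0 0) * u 0 * u 1 - g.1 0 1 * u 1 ^ 2) * (hab + b ^ 2 * hdet)
  · rw [LinearMap.finrank_range_of_inj hf, Module.finrank_fin_fun, Module.finrank_pi_fintype]
    simp

end plane

end Cfsg.Agent.H683.K6
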